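import Mathlib
import Cfsg.Agent.Base
import Cfsg.Agent.Lib.CGT.Net

/-!
A computation with matrices of degree three over the field with thirteen elements.
-/

set_option autoImplicit false

namespace H39.RV

open Matrix H54

/-- Nine numbers. -/
structure N9 where
  (a b c d e f g h k : ℕ)

namespace N9

/-- The matrix. -/
def m (A : N9) : Matrix (Fin 3) (Fin 3) (ZMod 13) := !![A.a, A.b, A.c; A.d, A.e, A.f; A.g, A.h, A.k]

/-- The product, passed to a continuation. -/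
noncomputable def mulK (A B : N9) (k : N9 → Bool) : Bool :=
  force ((A.a * B.a + A.b * B.d + A.c * B.g) % 13) fun a => force ((A.a * B.b + A.b * B.e + A.c * B.h) % 13) fun b =>
  force ((A.a * B.c + A.b * B.f + A.c * B.k) % 13) fun c => force ((A.d * B.a + A.e * B.d + A.f * B.g) % 13) fun d =>
  force ((A.d * B.b + A.e * B.e + A.f * B.h) % 13) fun e => force ((A.d * B.c + A.e * B.f + A.f * B.k) % 13) fun f =>
  force ((A.g * B.a + A.h * B.d + A.k * B.g) % 13) fun g => force ((A.g * B.b + A.h * B.e + A.k * B.h) % 13) fun h =>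
  force ((A.g * B.c + A.h * B.f + A.k * B.k) % 13) fun l => k ⟨a, b, c, d, e, f, g, h, l⟩

theorem mulK_spec {A B : N9} {k : N9 → Bool} (h : mulK A B k = true) : ∃ C : N9, C.m = A.m * B.m ∧ k C = true :=
  ⟨_, by simp only [m, ZMod.natCast_mod, Nat.cast_add, Nat.cast_mul, mul_fin_three], h⟩

/-- The test for the identity. -/
def isOne (A : N9) : Bool := decide ((A.a : ZMod 13) = 1 ∧ (A.b : ZMod 13) = 0 ∧ (A.c : ZMod 13) = 0) &&
  (decide ((A.d : ZMod 13) = 0 ∧ (A.e : ZMod 13) = 1 ∧ (A.f : ZMod 13) = 0) &&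
    decide ((A.g : ZMod 13) = 0 ∧ (A.h : ZMod 13) = 0 ∧ (A.k : ZMod 13) = 1))

theorem isOne_iff {A : N9} : A.isOne = true ↔ A.m = 1 := by
  simp [isOne, m, one_fin_three]

/-- The twelfth power. -/
noncomputable def p12 (A : N9) (k : N9 → Bool) : Bool :=
  mulK A A fun B => mulK B A fun C => mulK C C fun D => mulK D D k

theorem p12_spec {A : N9} {k : N9 → Bool} (h : p12 A k = true) : ∃ C : N9, C.m = A.m ^ 12 ∧ k C = true := by
  obtain ⟨B, b, h⟩ := mulK_spec h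
  obtain ⟨C, c, h⟩ := mulK_spec h
  obtain ⟨D, d, h⟩ := mulK_spec h
  obtain ⟨E, e, h⟩ := mulK_spec h
  exact ⟨E, by rw [e, d, c, b]; simp only [pow_succ, pow_zero, one_mul, mul_assoc], h⟩

/-- The value of a word. -/
noncomputable def evK (g : List N9) (w : List ℕ) : (N9 → Bool) → Bool :=
  List.rec (fun k => k ⟨1, 0, 0, 0, 1, 0, 0, 0, 1⟩)
    (fun l _ ih k => ih fun B => mulK (g.getD l ⟨1, 0, 0, 0, 1, 0, 0, 0, 1⟩) B k) w

/-- A power of the word has order thirteen. -/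
noncomputable def bad (g : List N9) (w : List ℕ) : Bool :=
  evK g w fun A => p12 A fun U => !U.isOne && p12 U fun V => mulK V U isOne

variable {X : Submonoid (Matrix (Fin 3) (Fin 3) (ZMod 13))} {g : List N9}

theorem evK_spec (h : ∀ A ∈ g, A.m ∈ X) : ∀ (w : List ℕ) (k : N9 → Bool), evK g w k = true →
    ∃ C : N9, C.m ∈ X ∧ k C = true := by
  have o : m ⟨1, 0, 0, 0, 1, 0, 0, 0, 1⟩ ∈ X := by
    rw [isOne_iff.1 (by decide)]; exact one_mem X
  intro w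
  induction w with
  | nil => exact fun k e => ⟨_, o, e⟩
  | cons l w ih =>
    intro k e
    obtain ⟨B, b, e⟩ := ih _ e
    obtain ⟨C, c, e⟩ := mulK_spec e
    refine ⟨C, c ▸ mul_mem ?_ b, e⟩
    rw [List.getD_eq_getElem?_getD]
    cases e : g[l]? with
    | none => exact o
    | some a => exact h a (List.mem_of_getElem? e)

theorem not_bad (h1 : ∀ M ∈ X, M ^ 13 = 1 → M = 1) (h : ∀ A ∈ g, A.m ∈ X) (w : List ℕ) : bad g w ≠ true := fun e => by
  obtain ⟨A, a, e⟩ := evK_spec h w _ e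
  obtain ⟨U, u, e⟩ := p12_spec e
  rw [Bool.and_eq_true, Bool.not_eq_true', ← Bool.not_eq_true, isOne_iff] at e
  obtain ⟨V, v, e'⟩ := p12_spec e.2
  obtain ⟨W, w, e'⟩ := mulK_spec e'
  exact e.1 (h1 _ (u ▸ pow_mem a 12) (by rw [pow_succ, ← v, ← w, isOne_iff.1 e']))

end N9

/-- The words. -/
def abW (i a : ℕ) : List ℕ := (if i = 5 then [[2, 1, 2, 1, 2, 1, 2, 2], [2, 0, 1, 2, 0], [2, 0, 0, 1, 1, 2, 1],
  [2, 0, 2, 0, 2, 1], [2, 1], [2, 0, 0], [2, 1, 2, 1, 2, 2], [2, 1, 2, 1, 2, 2], [2, 0, 0], [2, 0, 1],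
  [2, 0, 2, 0, 2, 1], [2, 1, 1, 2, 1], [2, 0, 1, 2, 0]] else [[2, 1, 2, 1, 2, 1, 2, 2], [2, 0, 1, 2, 0],
  [2, 1, 1, 2, 1], [2, 0, 2, 0, 2, 1], [2, 0, 1], [2, 0, 0], [2, 1, 2, 1, 2, 2], [2, 1, 2, 1, 2, 2], [2, 0, 0],
  [2, 1], [2, 0, 2, 0, 2, 1], [2, 0, 0, 1, 1, 2, 1], [2, 0, 1, 2, 0]]).getD a []

theorem ab_ok : ∀ i ∈ [5, 8], ∀ a < 13, ∀ b < 13, ∀ c < 13, (a * a + b * c) % 13 = 12 → (b = 0 ∧ c = 0) ∨
    N9.bad [⟨12, 0, 0, 0, i, 0, 0, 0, i⟩, ⟨i, 0, 0, 0, 7 * i + 6, 7 * i + 6, 0, 6 * i + 7, 7 * i + 6⟩,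
      ⟨a, 0, b, 0, 1, 0, c, 0, 12 * a⟩] (abW i a) = true := by decide +kernel

theorem ab_key {X : Submonoid (Matrix (Fin 3) (Fin 3) (ZMod 13))} (h : ∀ M ∈ X, M ^ 13 = 1 → M = 1)
    {i a b c d : ZMod 13} (hi : i * i = -1) (h1 : !![-1, 0, 0; 0, i, 0; 0, 0, i] ∈ X)
    (h2 : !![i, 0, 0; 0, 7 * i + 6, 7 * i + 6; 0, 6 * i + 7, 7 * i + 6] ∈ X) (h3 : !![a, 0, b; 0, 1, 0; c, 0, d] ∈ X)
    (e1 : a * a + b * c = -1) (e2 : b * (a + d) = 0) (e3 : c * (a + d) = 0) : b = 0 ∧ c = 0 := by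
  have : Fact (Nat.Prime 13) := ⟨by norm_num⟩
  by_cases e : a + d = 0
  swap
  · exact ⟨(mul_eq_zero.1 e2).resolve_right e, (mul_eq_zero.1 e3).resolve_right e⟩
  have k : (12 : ZMod 13) = -1 := rfl
  refine (ab_ok i.val (by clear h1 h2; revert i; decide) a.val a.val_lt b.val b.val_lt c.val c.val_lt ?_).elim
    (fun e => by simpa using e) fun e' => (N9.not_bad h ?_ _ e').elim
  · rw [← ZMod.val_natCast]
    simp only [Nat.cast_add, Nat.cast_mul, ZMod.natCast_zmod_val, e1]; rfl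
  · simpa [N9.m, k, h1, h2, neg_eq_of_add_eq_zero_right e]

theorem eqns_Ab : True := by
  have := @N9.m.eq_1
  have := @N9.mulK.eq_1
  have := @N9.isOne.eq_1
  have := @N9.p12.eq_1
  have := @N9.evK.eq_1
  have := @N9.bad.eq_1
  have := @abW.eq_1
  trivial

end H39.RV
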