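import Mathlib
import Cfsg.Agent.Base
import Cfsg.Agent.Lib.Loc91.ExtraP

/-!
The extraspecial group of order `p ^ 3` and exponent `p` in coordinates, and the data of a saturated
fusion system over it: a group of matrices and a set of lines.
-/

set_option autoImplicit false

namespace H39.RV

open Subgroup Matrix
open scoped commutatorElement MatrixGroups

/-- The alternating form. -/
def om {K : Type*} [CommRing K] (v w : Fin 2 → K) : K := v 0 * w 1 - v 1 * w 0

/-- The Heisenberg group. -/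
@[ext] structure Hs (K : Type*) where
  v : Fin 2 → K
  c : K

section Ring

variable {K : Type*} [CommRing K] {x y : Hs K}

theorem sm0 (M : GL (Fin 2) K) (v : Fin 2 → K) : (M • v) 0 = M.1 0 0 * v 0 + M.1 0 1 * v 1 := by
  simp [Units.smul_def, mulVec, dotProduct]

theorem sm1 (M : GL (Fin 2) K) (v : Fin 2 → K) : (M • v) 1 = M.1 1 0 * v 0 + M.1 1 1 * v 1 := by
  simp [Units.smul_def, mulVec, dotProduct]

theorem vec_ext {α : Type*} {v w : Fin 2 → α} (h0 : v 0 = w 0) (h1 : v 1 = w 1) : v = w :=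
  funext (Fin.forall_fin_two.2 ⟨h0, h1⟩)

theorem gl_ext {M N : GL (Fin 2) K} (h0 : M.1 0 0 = N.1 0 0) (h1 : M.1 0 1 = N.1 0 1)
    (h2 : M.1 1 0 = N.1 1 0) (h3 : M.1 1 1 = N.1 1 1) : M = N :=
  Units.ext (vec_ext (vec_ext h0 h1) (vec_ext h2 h3))

theorem ent {α : Type*} (a b c d : α) : !![a, b; c, d] 0 0 = a ∧ !![a, b; c, d] 0 1 = b ∧
    !![a, b; c, d] 1 0 = c ∧ !![a, b; c, d] 1 1 = d := ⟨rfl, rfl, rfl, rfl⟩

theorem gl_mul (M N : GL (Fin 2) K) (i j : Fin 2) : (M * N).1 i j = M.1 i 0 * N.1 0 j + M.1 i 1 * N.1 1 j := by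
  rw [Units.val_mul, Matrix.mul_apply, Fin.sum_univ_two]

theorem om_gl (M : GL (Fin 2) K) (v w : Fin 2 → K) : om (M • v) (M • w) = M.1.det * om v w := by
  simp only [om, sm0, sm1, det_fin_two]; ring

theorem det_mul' (M N : GL (Fin 2) K) : (M * N).1.det = M.1.det * N.1.det := det_mul _ _

theorem det_inv (M : GL (Fin 2) K) : M⁻¹.1.det * M.1.det = 1 := by rw [← det_mul, Units.inv_mul, det_one]

theorem om_self (v : Fin 2 → K) : om v v = 0 := by simp [om, mul_comm]
theorem om_smul (a b : K) (v w : Fin 2 → K) : om (a • v) (b • w) = a * b * om v w := by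
  simp [om]; ring
@[simp] theorem om_zero (v : Fin 2 → K) : om v 0 = 0 := by simp [om]
@[simp] theorem zero_om (v : Fin 2 → K) : om 0 v = 0 := by simp [om]

instance : Mul (Hs K) := ⟨fun x y => ⟨x.v + y.v, x.c + y.c + om x.v y.v⟩⟩
instance : One (Hs K) := ⟨⟨0, 0⟩⟩
instance : Inv (Hs K) := ⟨fun x => ⟨-x.v, -x.c⟩⟩

@[simp] theorem mul_v : (x * y).v = x.v + y.v := rfl
@[simp] theorem mul_c : (x * y).c = x.c + y.c + om x.v y.v := rfl
@[simp] theorem one_v : (1 : Hs K).v = 0 := rfl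
@[simp] theorem one_c : (1 : Hs K).c = 0 := rfl
@[simp] theorem inv_v : x⁻¹.v = -x.v := rfl
@[simp] theorem inv_c : x⁻¹.c = -x.c := rfl

instance : Group (Hs K) := Group.ofLeftAxioms
  (fun _ _ _ => Hs.ext (add_assoc _ _ _) (by simp [om]; ring))
  (fun _ => Hs.ext (zero_add _) (by simp)) fun _ => Hs.ext (neg_add_cancel _) (by simp [om]; ring)

theorem conj_eq (t x : Hs K) : t * x * t⁻¹ = ⟨x.v, x.c + 2 * om t.v x.v⟩ :=
  Hs.ext (by simp) (by simp [om]; ring)

theorem comm_eq (t x : Hs K) : ⁅t, x⁆ = ⟨0, 2 * om t.v x.v⟩ := by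
  rw [commutatorElement_def, conj_eq]
  exact Hs.ext (by simp) (by simp [om]; ring)

theorem pow_eq (x : Hs K) (n : ℕ) : x ^ n = ⟨(n : K) • x.v, n * x.c⟩ := by
  induction n with
  | zero => exact Hs.ext (by simp) (by simp)
  | succ n ih => rw [pow_succ, ih]; exact Hs.ext (by simp [add_smul]) (by simp [om]; ring)

/-- The coordinates. -/
def eqv : Hs K ≃ (Fin 2 → K) × K := ⟨fun x => (x.v, x.c), fun x => ⟨x.1, x.2⟩, fun _ => rfl, fun _ => rfl⟩

instance [Finite K] : Finite (Hs K) := Finite.of_equiv _ eqv.symm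

/-- The action of a matrix. -/
def act (M : GL (Fin 2) K) : Hs K ≃* Hs K where
  toFun x := ⟨M • x.v, M.1.det * x.c⟩
  invFun x := ⟨M⁻¹ • x.v, M⁻¹.1.det * x.c⟩
  left_inv x := Hs.ext (inv_smul_smul _ _) (by dsimp only; rw [← mul_assoc, det_inv, one_mul])
  right_inv x := Hs.ext (smul_inv_smul _ _) (by dsimp only; rw [← mul_assoc, mul_comm M.1.det, det_inv, one_mul])
  map_mul' x y := Hs.ext (smul_add _ _ _) (by simp only [mul_c, om_gl]; ring)

theorem act_apply (M : GL (Fin 2) K) (x : Hs K) : act M x = ⟨M • x.v, M.1.det * x.c⟩ := rfl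

theorem act_mul (M N : GL (Fin 2) K) (x : Hs K) : act (M * N) x = act M (act N x) :=
  Hs.ext (mul_smul _ _ _) (by simp only [act_apply, det_mul', mul_assoc])

theorem act_one (x : Hs K) : act 1 x = x := Hs.ext (one_smul _ _) (by simp [act_apply])

theorem act_inv (M : GL (Fin 2) K) (x : Hs K) : act M⁻¹ (act M x) = x := (act M).symm_apply_apply x

theorem act_inv' (M : GL (Fin 2) K) (x : Hs K) : act M (act M⁻¹ x) = x := (act M).apply_symm_apply x

variable (K) in
/-- The centre. -/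
def ZZ : Subgroup (Hs K) where
  carrier := {x | x.v = 0}
  one_mem' := rfl
  mul_mem' {a b} (h : a.v = 0) (h' : b.v = 0) := show a.v + b.v = 0 by rw [h, h', add_zero]
  inv_mem' {a} (h : a.v = 0) := show -a.v = 0 by rw [h, neg_zero]

/-- The plane over a line. -/
def VV (v : Fin 2 → K) : Subgroup (Hs K) where
  carrier := {x | om v x.v = 0}
  one_mem' := om_zero v
  mul_mem' {a b} (h : om v a.v = 0) (h' : om v b.v = 0) := show om v (a.v + b.v) = 0 by
    simp only [om, Pi.add_apply] at *; linear_combination h + h'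
  inv_mem' {a} (h : om v a.v = 0) := show om v (-a.v) = 0 by
    simp only [om, Pi.neg_apply] at *; linear_combination -h

theorem mem_ZZ : x ∈ ZZ K ↔ x.v = 0 := Iff.rfl
theorem mem_VV {v : Fin 2 → K} : x ∈ VV v ↔ om v x.v = 0 := Iff.rfl

/-- The plane in coordinates. -/
def pl (v w : Fin 2 → K) : Hs K := ⟨w 0 • v, w 1⟩

theorem pl_add (v w u : Fin 2 → K) : pl v (w + u) = pl v w * pl v u :=
  Hs.ext (add_smul _ _ _) (by simp [pl, om_smul, om_self])

theorem pl_pow (v w : Fin 2 → K) (n : ℕ) : pl v w ^ n = pl v ((n : K) • w) := by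
  rw [pow_eq]; exact Hs.ext (smul_smul _ _ _) rfl

theorem pl_mem (v w : Fin 2 → K) : pl v w ∈ VV v := by
  simp only [mem_VV, pl, om, Pi.smul_apply, smul_eq_mul]; ring

end Ring

section Field

variable {K : Type*} [Field K] {v w : Fin 2 → K}

theorem ne_iff : v ≠ 0 ↔ v 0 ≠ 0 ∨ v 1 ≠ 0 := by
  rw [← not_and_or, Ne, funext_iff, Fin.forall_fin_two]; rfl

theorem exists_smul (h : v ≠ 0) (e : om v w = 0) : ∃ a : K, w = a • v := by
  rcases ne_iff.1 h with h | h
  · refine ⟨w 0 / v 0, funext (Fin.forall_fin_two.2 ⟨?_, ?_⟩)⟩ <;> simp only [Pi.smul_apply, smul_eq_mul] <;>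
      field_simp
    rw [om] at e; linear_combination e
  · refine ⟨w 1 / v 1, funext (Fin.forall_fin_two.2 ⟨?_, ?_⟩)⟩ <;> simp only [Pi.smul_apply, smul_eq_mul] <;>
      field_simp
    rw [om] at e; linear_combination -e

theorem exists_om (h : v ≠ 0) (c : K) : ∃ t, om t v = c := by
  rcases ne_iff.1 h with h | h
  · exact ⟨![0, -c / v 0], by simp [om]; field_simp⟩
  · exact ⟨![c / v 1, 0], by simp [om]; field_simp⟩

theorem exists_pl (h : v ≠ 0) {x : Hs K} (hx : x ∈ VV v) : ∃ w, x = pl v w :=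
  let ⟨a, e⟩ := exists_smul h hx; ⟨![a, x.c], Hs.ext e rfl⟩

theorem pl_inj (h : v ≠ 0) {u : Fin 2 → K} (e : pl v w = pl v u) : w = u :=
  funext (Fin.forall_fin_two.2 ⟨smul_left_injective K h (congrArg Hs.v e), congrArg Hs.c e⟩)

/-- A matrix with given columns. -/
def cols (u w : Fin 2 → K) (h : om u w ≠ 0) : GL (Fin 2) K :=
  GeneralLinearGroup.mkOfDetNeZero !![u 0, w 0; u 1, w 1] (by
    rw [det_fin_two_of]; rwa [om, mul_comm (u 1)] at h)

theorem cols_val (u w : Fin 2 → K) (h : om u w ≠ 0) : (cols u w h).1 = !![u 0, w 0; u 1, w 1] := rfl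

theorem cols_smul (u w : Fin 2 → K) (h : om u w ≠ 0) (a : Fin 2 → K) :
    cols u w h • a = a 0 • u + a 1 • w :=
  vec_ext (by simp [sm0, cols_val, mul_comm]) (by simp [sm1, cols_val, mul_comm])

theorem cols_det (u w : Fin 2 → K) (h : om u w ≠ 0) : (cols u w h).1.det = om u w := by
  rw [cols_val, det_fin_two_of, om, mul_comm (u 1)]

theorem det_ne (M : GL (Fin 2) K) : M.1 0 0 * M.1 1 1 - M.1 0 1 * M.1 1 0 ≠ 0 := by
  rw [← det_fin_two]; exact (M.isUnit.map detMonoidHom).ne_zero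

/-- A lower unitriangular matrix. -/
def lo (r : K) : GL (Fin 2) K := cols ![1, r] ![0, 1] (by simp [om])

/-- An upper unitriangular matrix. -/
def up (r : K) : GL (Fin 2) K := cols ![1, 0] ![r, 1] (by simp [om])

theorem lo_val (r : K) : (lo r).1 = !![1, 0; r, 1] := rfl
theorem up_val (r : K) : (up r).1 = !![1, r; 0, 1] := rfl

theorem mem_of_det {H : Subgroup (GL (Fin 2) K)} (hl : ∀ r, lo r ∈ H) {A : GL (Fin 2) K} (hA : A ∈ H)
    (h : A.1 0 1 ≠ 0) {B : GL (Fin 2) K} (hB : B.1.det = 1) : B ∈ H := by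
  have d := det_ne A
  have hu : ∀ r, up r ∈ H := fun r => by
    have e : up r * (lo (-A.1 1 1 / A.1 0 1) * A) =
        lo (-A.1 1 1 / A.1 0 1) * A * lo (-r * (A.1 0 0 * A.1 1 1 - A.1 0 1 * A.1 1 0) / A.1 0 1 ^ 2) := by
      apply gl_ext <;> simp only [gl_mul, up_val, lo_val, ent] <;> field_simp <;> ring
    rw [eq_mul_inv_of_mul_eq e]
    exact mul_mem (mul_mem (mul_mem (hl _) hA) (hl _)) (inv_mem (mul_mem (hl _) hA))
  have key : ∀ B : GL (Fin 2) K, B.1.det = 1 → B.1 0 1 ≠ 0 → B ∈ H := fun B hB h => by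
    have e : B = lo ((B.1 1 1 - 1) / B.1 0 1) * up (B.1 0 1) * lo ((B.1 0 0 - 1) / B.1 0 1) := by
      rw [det_fin_two] at hB
      apply gl_ext <;> simp only [gl_mul, up_val, lo_val, ent] <;> field_simp
      all_goals first | ring1 | linear_combination -hB
    rw [e]
    exact mul_mem (mul_mem (hl _) (hu _)) (hl _)
  by_cases h0 : B.1 0 1 = 0
  · refine (mul_mem_cancel_left (hu 1)).1 (key _ (by rw [det_mul', hB, up_val]; simp) ?_)
    have := det_ne B
    rw [h0, zero_mul, sub_zero] at this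
    simpa [gl_mul, up_val, h0] using right_ne_zero_of_mul this
  · exact key B hB h0

/-- A diagonal matrix. -/
def dg (a b : K) (h : a * b ≠ 0) : GL (Fin 2) K := cols ![a, 0] ![0, b] (by simpa [om] using h)

theorem dg_val (a b : K) (h : a * b ≠ 0) : (dg a b h).1 = !![a, 0; 0, b] := rfl

theorem dg_smul (a b : K) (h : a * b ≠ 0) (w : Fin 2 → K) : dg a b h • w = ![a * w 0, b * w 1] :=
  vec_ext (by simp [sm0, dg_val]) (by simp [sm1, dg_val])

theorem dg_det (a b : K) (h : a * b ≠ 0) : (dg a b h).1.det = a * b := by simp [dg_val]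

end Field

/-- Data of a system: a `p'`-group of matrices and an invariant set of lines with their tori. -/
structure Dat {K : Type*} [Field K] (W : Subgroup (GL (Fin 2) K)) (R : (Fin 2 → K) → Prop) : Prop where
  un : ∀ M ∈ W, ∀ v : Fin 2 → K, v ≠ 0 → M • v = v → M.1.det = 1 → M = 1
  ne : ∀ v, R v → v ≠ 0
  inv : ∀ M ∈ W, ∀ v, R v → R (M • v)
  smul : ∀ a : K, a ≠ 0 → ∀ v, R v → R (a • v)
  tor : ∀ v, R v → ∀ l : K, l ≠ 0 → ∃ M ∈ W, M • v = l⁻¹ • v ∧ M.1.det = l

/-- Three lines. -/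
def Three {K : Type*} [Field K] (R : (Fin 2 → K) → Prop) : Prop :=
  ∃ u v w, R u ∧ R v ∧ R w ∧ om u v ≠ 0 ∧ om u w ≠ 0 ∧ om v w ≠ 0

section Prime

variable {p : ℕ} [hp : Fact p.Prime]

theorem card_Hs : Nat.card (Hs (ZMod p)) = p ^ 3 := by
  rw [Nat.card_congr eqv, Nat.card_prod, Nat.card_fun, Nat.card_zmod, Nat.card_fin]; ring

theorem pg_Hs : IsPGroup p (Hs (ZMod p)) := IsPGroup.of_card card_Hs

theorem pow_val (x : Hs (ZMod p)) (a : ZMod p) : x ^ a.val = ⟨a • x.v, a * x.c⟩ := by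
  rw [pow_eq, ZMod.natCast_zmod_val]

theorem eq_top_of (h2 : (2 : ZMod p) ≠ 0) {E : Subgroup (Hs (ZMod p))} {x y : Hs (ZMod p)} (hx : x ∈ E)
    (hy : y ∈ E) (h : om x.v y.v ≠ 0) : E = ⊤ := by
  have hz : ∀ c, (⟨0, c⟩ : Hs (ZMod p)) ∈ E := fun c => by
    have := pow_mem (mul_mem (mul_mem (mul_mem hx hy) (inv_mem hx)) (inv_mem hy)) (c / (2 * om x.v y.v)).val
    rwa [← commutatorElement_def, comm_eq, pow_val, smul_zero, div_mul_cancel₀ _ (mul_ne_zero h2 h)] at this
  refine eq_top_iff.2 fun u _ => ?_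
  let a := (cols _ _ h)⁻¹ • u.v
  have e : a 0 • x.v + a 1 • y.v = u.v := by rw [← cols_smul _ _ h, smul_inv_smul]
  have := mul_mem (hz (u.c - (x ^ (a 0).val * y ^ (a 1).val).c))
    (mul_mem (pow_mem hx (a 0).val) (pow_mem hy (a 1).val))
  convert this using 1
  exact Hs.ext (by simp [pow_val, e]) (by simp)

variable {G : Type*} [Group G]

/-- The embedding attached to generators. -/
theorem exists_hom (h2 : (2 : ZMod p) ≠ 0) {x y w : G} (hx : x ^ p = 1) (hy : y ^ p = 1) (hw : w ^ p = 1)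
    (wx : Commute w x) (wy : Commute w y) (e : x * y = w * (y * x)) (h1 : w ≠ 1) :
    ∃ j : Hs (ZMod p) →* G, Function.Injective j ∧ j ⟨![1, 0], 0⟩ = x ∧ j ⟨![0, 1], 0⟩ = y ∧
      j ⟨0, 2⟩ = w := by
  have k1 : ∀ a : ℕ, x ^ a * y = w ^ a * (y * x ^ a) := fun a => by
    induction a with
    | zero => simp
    | succ a ih => rw [pow_succ', mul_assoc, ih, ← mul_assoc, ← (wx.pow_left a).eq, mul_assoc,
        ← mul_assoc x, e, pow_succ w]; simp only [mul_assoc]
  have k2 : ∀ a b : ℕ, x ^ a * y ^ b = w ^ (a * b) * (y ^ b * x ^ a) := fun a b => by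
    induction b with
    | zero => simp
    | succ b ih => rw [pow_succ, ← mul_assoc, ih, mul_assoc, mul_assoc, k1, ← mul_assoc (y ^ b),
        ← (wy.pow_pow a b).eq, mul_add, mul_one, pow_add]; simp only [mul_assoc]
  have k3 : ∀ a b : ZMod p, y ^ b.val * x ^ a.val = w ^ (-(a * b)).val * (x ^ a.val * y ^ b.val) :=
    fun a b => by
      rw [k2, ← mul_assoc, pow_mul, ← H91.zp_mul hw, ← H91.zp_add hw, neg_add_cancel, ZMod.val_zero,
        pow_zero, one_mul]
  let j : Hs (ZMod p) →* G := MonoidHom.mk'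
    (fun u => w ^ ((u.c - u.v 0 * u.v 1) / 2).val * (x ^ (u.v 0).val * y ^ (u.v 1).val)) fun a b => by
      have c : ∀ (i : ℕ) (g : G), g = x ^ (a.v 0).val ∨ g = y ^ (a.v 1).val → ∀ t, g * (w ^ i * t) = w ^ i * (g * t) := by
        rintro i g (rfl | rfl) t <;> rw [← mul_assoc, ← mul_assoc]
        exacts [by rw [(wx.pow_pow _ _).eq], by rw [(wy.pow_pow _ _).eq]]
      simp only [mul_v, mul_c, Pi.add_apply, H91.zp_add hx, H91.zp_add hy, mul_assoc]
      rw [c _ _ (Or.inr rfl), c _ _ (Or.inl rfl), ← mul_assoc (y ^ _) (x ^ _), k3, mul_assoc,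
        c _ _ (Or.inl rfl), ← mul_assoc (w ^ _) (w ^ _), ← mul_assoc (_ * _) (w ^ _), ← H91.zp_add hw,
        ← H91.zp_add hw, mul_assoc]
      congr 3
      rw [om]; field_simp; ring
  have j2 : j ⟨0, 2⟩ = w := by simp [j, h2, ZMod.val_one]
  refine ⟨j, (injective_iff_map_eq_one j).2 fun u hu => ?_, by simp [j, ZMod.val_one],
    by simp [j, ZMod.val_one], j2⟩
  have hz : ∀ c, j ⟨0, c⟩ = 1 → c = 0 := fun c hc => by_contra fun h => h1 (by
    have := congrArg (· ^ (2 / c).val) hc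
    simpa only [← map_pow, pow_val, smul_zero, div_mul_cancel₀ _ h, j2, one_pow] using this)
  have h0 : u.v = 0 := by_contra fun h => by
    obtain ⟨t, ht⟩ := exists_om h 1
    have := hz (2 * om t u.v) (by rw [← comm_eq ⟨t, 0⟩ u, map_commutatorElement, hu, commutatorElement_one_right])
    rw [ht, mul_one] at this
    exact h2 this
  exact Hs.ext h0 (hz _ (by rw [← h0]; exact hu))

theorem sylow_range [Finite G] {j : Hs (ZMod p) →* G} (hj : Function.Injective j)
    (h : ¬ p ^ 4 ∣ Nat.card G) : ∃ T : Sylow p G, (T : Subgroup G) = j.range := by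
  have hc : Nat.card j.range = p ^ 3 := by rw [← card_Hs, Nat.card_congr (MonoidHom.ofInjective hj).toEquiv]
  refine ⟨(IsPGroup.of_card hc).toSylow fun ⟨k, e⟩ => h ⟨k, ?_⟩, rfl⟩
  rw [← card_mul_index j.range, hc, e]; ring

end Prime

theorem eqns_Hs : True := by
  have := @om.eq_1.{0}
  have := @eqv.eq_1.{0}
  have := @act.eq_1.{0}
  have := @ZZ.eq_1.{0}
  have := @VV.eq_1.{0}
  have := @pl.eq_1.{0}
  have := @cols.eq_1.{0}
  have := @lo.eq_1.{0}
  have := @up.eq_1.{0}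
  have := @Three.eq_1.{0}
  have := @dg.eq_1.{0}
  trivial

end H39.RV
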