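import Mathlib
import Cfsg.Agent.Base
import Cfsg.Agent.Lib.RV.Hs

/-!
Classification of the data with three radical lines.
-/

set_option autoImplicit false

namespace H39.RV

open Subgroup Matrix H29 MulAction
open scoped MatrixGroups

section Field

variable {K : Type*} [Field K] {W : Subgroup (GL (Fin 2) K)} {R : (Fin 2 → K) → Prop}
  {M N A : GL (Fin 2) K} {u v : Fin 2 → K}

/-- The conjugate group. -/
def cw (W : Subgroup (GL (Fin 2) K)) (N : GL (Fin 2) K) : Subgroup (GL (Fin 2) K) :=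
  W.comap (MulAut.conj N).toMonoidHom

theorem mem_cw : M ∈ cw W N ↔ N * M * N⁻¹ ∈ W := Iff.rfl

theorem gl_ext' (k : ∀ w : Fin 2 → K, M • w = N • w) : M = N :=
  gl_ext (by simpa [sm0] using congrFun (k ![1, 0]) 0) (by simpa [sm0] using congrFun (k ![0, 1]) 0)
    (by simpa [sm1] using congrFun (k ![1, 0]) 1) (by simpa [sm1] using congrFun (k ![0, 1]) 1)

theorem det_conj (N M : GL (Fin 2) K) : (N * M * N⁻¹).1.det = M.1.det := by
  rw [det_mul', det_mul', mul_right_comm, mul_comm N.1.det, det_inv, one_mul]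

theorem Dat.conj (D : Dat W R) (N : GL (Fin 2) K) : Dat (cw W N) fun v => R (N • v) where
  un M hM v h0 h1 h2 := by
    have := D.un _ hM (N • v) (mt (smul_eq_zero_iff_eq N).1 h0)
      (by rw [MulEquiv.coe_toMonoidHom, MulAut.conj_apply, mul_smul, inv_smul_smul, mul_smul, h1])
      ((det_conj N M).trans h2)
    simpa using this
  ne v h e := D.ne _ h (by rw [e, smul_zero])
  inv M hM v h := by
    have := D.inv _ hM _ h
    rwa [MulEquiv.coe_toMonoidHom, MulAut.conj_apply, mul_smul, inv_smul_smul, mul_smul, smul_smul N,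
      mul_smul] at this
  smul a ha v h := by rw [smul_comm]; exact D.smul a ha _ h
  tor v h l hl := by
    obtain ⟨M, hM, a, b⟩ := D.tor _ h l hl
    refine ⟨N⁻¹ * M * N⁻¹⁻¹, by simpa [mem_cw, mul_assoc], ?_, (det_conj _ _).trans b⟩
    rw [inv_inv, mul_smul, mul_smul, a, smul_comm, inv_smul_smul]

theorem eig {a b : K} (h : M • u = a • u) (d : M.1.det = a * b) (h0 : u ≠ 0) (ha : a ≠ 0) (hab : a ≠ b) :
    ∃ u', om u u' ≠ 0 ∧ M • u' = b • u' := by
  obtain ⟨t, ht⟩ := exists_om h0 1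
  have e0 := congrFun h 0
  have e1 := congrFun h 1
  simp only [sm0, sm1, Pi.smul_apply, smul_eq_mul, det_fin_two, om] at e0 e1 d ht
  have tr : M.1 0 0 + M.1 1 1 = a + b := mul_left_cancel₀ ha (by
    linear_combination d + ((M.1 1 1 - a) * t 1 + M.1 1 0 * t 0) * e0 -
      (M.1 0 1 * t 1 + (M.1 0 0 - a) * t 0) * e1 +
        ((M.1 0 0 - a) * (M.1 1 1 - a) - M.1 0 1 * M.1 1 0) * ht)
  refine ⟨M • t - a • t, fun e => hab (mul_left_cancel₀ ha ?_), vec_ext ?_ ?_⟩ <;>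
    simp only [sm0, sm1, Pi.smul_apply, smul_eq_mul, Pi.sub_apply, om] at *
  · linear_combination a * e + (M.1 1 0 * t 0 + M.1 1 1 * t 1) * e0 - (M.1 0 0 * t 0 + M.1 0 1 * t 1) * e1 +
      (t 0 * u 1 - t 1 * u 0) * d + (a * b - a * a) * ht
  · linear_combination (M.1 0 0 * t 0 + M.1 0 1 * t 1) * tr - t 0 * d
  · linear_combination (M.1 1 0 * t 0 + M.1 1 1 * t 1) * tr - t 1 * d

theorem Dat.nf (D : Dat W R) (h : Three R) {l : K} (hl : l ≠ 0) (h3 : l ^ 3 ≠ 1) :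
    ∃ N : GL (Fin 2) K, dg l⁻¹ (l ^ 2) (by simp [hl]) ∈ cw W N ∧ R (N • ![1, 0]) ∧ R (N • ![1, 1]) := by
  obtain ⟨u, v, w, hu, hv, hw, uv, uw, vw⟩ := h
  obtain ⟨M, hM, a, b⟩ := D.tor u hu l hl
  obtain ⟨u', h1, h2⟩ := eig (b := l ^ 2) a (by rw [b]; field_simp) (D.ne u hu) (inv_ne_zero hl)
    fun e => h3 (by field_simp at e; exact e.symm)
  obtain ⟨x, hx, x1, x2⟩ : ∃ x, R x ∧ om u x ≠ 0 ∧ om u' x ≠ 0 := by
    by_contra! e
    have h0 : u' ≠ 0 := fun e => h1 (by rw [e, om_zero])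
    obtain ⟨s, rfl⟩ := exists_smul h0 (e v hv uv)
    obtain ⟨t, rfl⟩ := exists_smul h0 (e w hw uw)
    exact vw (by rw [om_smul, om_self, mul_zero])
  have ha : -om u' x / om u u' ≠ 0 := div_ne_zero (neg_ne_zero.2 x2) h1
  have hn : om ((-om u' x / om u u') • u) ((om u x / om u u') • u') ≠ 0 := by
    rw [om_smul]; exact mul_ne_zero (mul_ne_zero ha (div_ne_zero x1 h1)) h1
  refine ⟨cols _ _ hn, ?_, by rw [cols_smul]; simpa using D.smul _ ha u hu, ?_⟩
  · rw [mem_cw, show cols _ _ hn * dg l⁻¹ (l ^ 2) _ = M * cols _ _ hn from gl_ext'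
      fun y => by
        rw [mul_smul, mul_smul, dg_smul, cols_smul, cols_smul]
        simp only [smul_add, smul_comm M, a, h2]
        simp [smul_smul, mul_comm, mul_left_comm, mul_assoc], mul_inv_cancel_right]
    exact hM
  · convert hx using 1
    refine vec_ext ?_ ?_ <;> simp only [cols_smul, Pi.add_apply, Pi.smul_apply, smul_eq_mul] <;>
      field_simp <;> simp [om] <;> ring

/-- Matrices as quadruples. -/
abbrev T4 (K : Type*) := K × K × K × K

/-- The entries. -/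
def tup (M : GL (Fin 2) K) : T4 K := (M.1 0 0, M.1 0 1, M.1 1 0, M.1 1 1)

/-- The product. -/
def tm (s t : T4 K) : T4 K := (s.1 * t.1 + s.2.1 * t.2.2.1, s.1 * t.2.1 + s.2.1 * t.2.2.2,
  s.2.2.1 * t.1 + s.2.2.2 * t.2.2.1, s.2.2.1 * t.2.1 + s.2.2.2 * t.2.2.2)

/-- The value of a word. -/
def ev (g : List (T4 K)) (w : List ℕ) : T4 K := w.foldr (fun a t => tm (g.getD a (1, 0, 0, 1)) t) (1, 0, 0, 1)

/-- The quadruple of an element of `W`. -/
def In (W : Subgroup (GL (Fin 2) K)) (t : T4 K) : Prop := ∃ M ∈ W, tup M = t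

theorem tup_mul (M N : GL (Fin 2) K) : tup (M * N) = tm (tup M) (tup N) := by
  simp only [tup, tm, gl_mul]

theorem tup_inj (h : tup M = tup N) : M = N := by
  simp only [tup, Prod.mk.injEq] at h
  exact gl_ext h.1 h.2.1 h.2.2.1 h.2.2.2

theorem In.mem (h : In W (tup M)) : M ∈ W := let ⟨_, a, e⟩ := h; tup_inj e ▸ a

theorem In.mul {s t : T4 K} (a : In W s) (b : In W t) : In W (tm s t) := by
  obtain ⟨M, hM, rfl⟩ := a
  obtain ⟨N, hN, rfl⟩ := b
  exact ⟨_, mul_mem hM hN, tup_mul M N⟩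

theorem in_one : In W (1, 0, 0, 1) := ⟨1, one_mem _, rfl⟩

theorem in_ev {g : List (T4 K)} (h : ∀ t ∈ g, In W t) (w : List ℕ) : In W (ev g w) := by
  induction w with
  | nil => exact in_one
  | cons a w ih =>
    refine In.mul ?_ ih
    rw [List.getD_eq_getElem?_getD]
    cases e : g[a]? with
    | none => exact in_one
    | some t => exact h t (List.mem_of_getElem? e)

/-- All products. -/
def pr (S L : List (T4 K)) : List (T4 K) := S.flatMap fun s => L.map (tm s)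

theorem in_pr {S L : List (T4 K)} (a : ∀ t ∈ S, In W t) (b : ∀ t ∈ L, In W t) : ∀ t ∈ pr S L, In W t := by
  intro t ht
  obtain ⟨s, hs, ht⟩ := List.mem_flatMap.1 ht
  obtain ⟨r, hr, rfl⟩ := List.mem_map.1 ht
  exact (a s hs).mul (b r hr)

theorem in_map {g : List (T4 K)} (h : ∀ t ∈ g, In W t) (L : List (List ℕ)) : ∀ t ∈ L.map (ev g), In W t := by
  intro t ht
  obtain ⟨w, -, rfl⟩ := List.mem_map.1 ht
  exact in_ev h w

theorem Dat.line (D : Dat W R) (h : R ![1, 0]) {t : T4 K} (ht : In W t) {a b : K} (h0 : ¬ (a = 0 ∧ b = 0))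
    (e : t.1 * b = t.2.2.1 * a) : R ![a, b] := by
  obtain ⟨M, hM, rfl⟩ := ht
  have r := D.inv M hM _ h
  obtain ⟨s, hs⟩ := exists_smul (w := ![a, b]) (D.ne _ r) (by simpa [om, sm0, sm1, sub_eq_zero, tup] using e)
  exact hs ▸ D.smul s (fun e => h0 (by simpa [e] using hs)) _ r

/-- The torus element of the line through `(1, c)`. -/
def t3 (l c b : K) : T4 K := (l⁻¹ - b * c, b, (l⁻¹ - (l ^ 2 + b * c)) * c, l ^ 2 + b * c)

theorem Dat.in_t3 (D : Dat W R) {c l : K} (h : R ![1, c]) (hl : l ≠ 0) : ∃ b, In W (t3 l c b) := by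
  obtain ⟨M, hM, a, d⟩ := D.tor _ h l hl
  have e0 := congrFun a 0
  have e1 := congrFun a 1
  simp only [sm0, sm1, Pi.smul_apply, smul_eq_mul, det_fin_two, cons_val_zero, cons_val_one, mul_one] at e0 e1 d
  have e2 : M.1 1 1 = l ^ 2 + M.1 0 1 * c := by
    have := mul_inv_cancel₀ hl
    linear_combination l * d - l * M.1 1 1 * e0 + l * M.1 0 1 * e1 - (M.1 1 1 - M.1 0 1 * c) * this
  refine ⟨M.1 0 1, M, hM, ?_⟩
  simp only [tup, t3, Prod.mk.injEq, ← e2, true_and, and_true]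
  exact ⟨by linear_combination e0, by linear_combination e1⟩

variable [DecidableEq K]

/-- A non-scalar matrix with a double eigenvalue. -/
def bd (t : T4 K) : Bool := decide ((t.1 + t.2.2.2) * (t.1 + t.2.2.2) = 4 * (t.1 * t.2.2.2 - t.2.1 * t.2.2.1)) &&
  !(decide (t.2.1 = 0) && decide (t.2.2.1 = 0) && decide (t.1 = t.2.2.2))

/-- The six lines. -/
def r0 (a b : K) : Bool := !(decide (a = 0) && decide (b = 0)) && decide (a * b * (a * a * (a * a) - b * b * (b * b)) = 0)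

end Field

variable {p : ℕ} [hp : Fact p.Prime] {W : Subgroup (GL (Fin 2) (ZMod p))} {R : (Fin 2 → ZMod p) → Prop}
  {M A : GL (Fin 2) (ZMod p)} (D : Dat W R)
include D

theorem Dat.fix (hM : M ∈ W) (h : (M.1 - 1).det = 0) (d : M.1.det = 1) : M = 1 := by
  obtain ⟨v, h0, e⟩ := Matrix.exists_mulVec_eq_zero_iff.2 h
  exact D.un M hM v h0 (by rwa [sub_mulVec, one_mulVec, sub_eq_zero] at e) d

theorem Dat.pow (hM : M ∈ W) (h : M ^ p = 1) : M = 1 := by
  have e : M.1 ^ p = 1 := congrArg Units.val h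
  refine D.fix hM (pow_eq_zero_iff hp.out.ne_zero |>.1 ?_) (by rw [← ZMod.pow_card M.1.det, ← det_pow, e, det_one])
  rw [← det_pow, sub_pow_char_of_commute _ (Commute.one_right _), e, one_pow, sub_self, det_zero]

theorem Dat.not_dvd : ¬ p ∣ Nat.card W := fun h => by
  obtain ⟨M, e⟩ := exists_prime_orderOf_dvd_card' p h
  have := D.pow M.2 (congrArg Subtype.val (e ▸ pow_orderOf_eq_one M))
  rw [show M = 1 from Subtype.ext this, orderOf_one] at e
  exact hp.out.one_lt.ne e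

theorem Dat.bd (h2 : (2 : ZMod p) ≠ 0) {t : T4 (ZMod p)} (h : In W t) : bd t = false := by
  obtain ⟨A, hA, rfl⟩ := h
  suffices (A.1 0 0 + A.1 1 1) * (A.1 0 0 + A.1 1 1) = 4 * (A.1 0 0 * A.1 1 1 - A.1 0 1 * A.1 1 0) →
      (A.1 0 1 = 0 ∧ A.1 1 0 = 0) ∧ A.1 0 0 = A.1 1 1 by
    rw [Bool.eq_false_iff, Ne, RV.bd]
    simp only [Bool.and_eq_true, decide_eq_true_eq, Bool.not_eq_true', not_and, Bool.not_eq_false]
    exact this
  intro e
  set m := (A.1 0 0 + A.1 1 1) / 2 with hm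
  have tr : A.1 0 0 + A.1 1 1 = 2 * m := by rw [hm]; field_simp
  have d : A.1 0 0 * A.1 1 1 - A.1 0 1 * A.1 1 0 = m * m := mul_left_cancel₀ (mul_ne_zero h2 h2) (by
    rw [tr] at e; linear_combination -e)
  have m0 : m ≠ 0 := fun e => det_ne A (by rw [d, e, mul_zero])
  have n : (A.1 - scalar _ m) ^ 2 = 0 := by
    rw [sq]
    ext i j; fin_cases i <;> fin_cases j <;> simp [Matrix.mul_apply, Fin.sum_univ_two]
    exacts [by linear_combination A.1 0 0 * tr - d, by linear_combination A.1 0 1 * tr,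
      by linear_combination A.1 1 0 * tr, by linear_combination A.1 1 1 * tr - d]
  have k : (A ^ p).1 = scalar _ m := by
    have := sub_pow_char_of_commute p (scalar_commute m (fun _ => .all _ _) A.1).symm
    rw [pow_eq_zero_of_le hp.out.two_le n, ← map_pow, ZMod.pow_card] at this
    exact (sub_eq_zero.1 this.symm)
  have u : (A * (A ^ p)⁻¹).1 = m⁻¹ • A.1 := by
    rw [Units.val_mul, Units.mul_inv_eq_iff_eq_mul, k, scalar_apply, ← smul_eq_mul_diagonal, smul_smul,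
      mul_inv_cancel₀ m0, one_smul]
  have := D.fix (mul_mem hA (inv_mem (pow_mem hA p))) (by
    rw [u]; simp [det_fin_two]; field_simp; linear_combination d - m * tr) (by
    rw [u]; simp [det_fin_two]; field_simp; linear_combination d)
  rw [mul_inv_eq_one] at this
  rw [this, k]; simp

theorem Dat.no (h2 : (2 : ZMod p) ≠ 0) {g : List (T4 (ZMod p))} (h : ∀ t ∈ g, In W t) {L : List (List ℕ)} :
    (L.any fun w => RV.bd (ev g w)) ≠ true := by
  simpa using fun w _ => D.bd h2 (in_ev h w)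

theorem Dat.bound (h : Three R) : ¬ 6 ≤ (p - 1) / Nat.gcd (p - 1) 3 := fun hn => by
  classical
  let K := AlgebraicClosure (ZMod p)
  let φ : ZMod p →+* K := algebraMap _ _
  let σ : W →* PGL(2, K) := (ProjGenLinGroup.mk : GL (Fin 2) K →* PGL(2, K)).comp
      ((Matrix.GeneralLinearGroup.map φ).comp W.subtype)
  have hM := (mob_pgl p (K := K)).subgroup σ.range
  haveI : Finite σ.range := Finite.of_surjective _ σ.rangeRestrict_surjective
  have hv : ∀ a, R a → (fun i => φ (a i)) ≠ 0 := fun a ha h0 =>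
    D.ne a ha (funext fun i => φ.injective (by simpa using congrFun h0 i))
  obtain ⟨u, v, w, hu, hv', hw, uv, uw, vw⟩ := h
  have hf : ∀ a b ha hb, om a b ≠ 0 → Projectivization.mk K _ (hv a ha) ≠ Projectivization.mk K _ (hv b hb) :=
    fun a b ha hb e e' => e (φ.injective (by
      rw [mk_eq_iff_cross] at e'; simpa [om, sub_eq_zero] using e'))
  obtain ⟨l, hl⟩ := IsCyclic.exists_ofOrder_eq_natCard (α := (ZMod p)ˣ)
  rw [Nat.card_eq_fintype_card, ZMod.card_units] at hl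
  have key : ∀ a ha, (p - 1) / Nat.gcd (p - 1) 3 ∣ eSt σ.range (Projectivization.mk K _ (hv a ha)) := by
    intro a ha
    obtain ⟨n, hn, h1, h2⟩ := D.tor a ha l l.ne_zero
    have h4 : (⟨σ ⟨n, hn⟩, _, rfl⟩ : σ.range) ∈ stabilizer σ.range (Projectivization.mk K _ (hv a ha)) :=
      (pgl_fix_iff _ _).2 ⟨φ (l : ZMod p)⁻¹, funext fun i => by
        have := congrArg φ (congrFun h1 i)
        rw [Units.smul_def, smul_eq_mulVec, mulVec_two] at this
        rw [mulVec_two]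
        generalize (l : ZMod p)⁻¹ = s at this ⊢
        simpa using this⟩
    refine Dvd.dvd.trans ?_ (orderOf_dvd_natCard (⟨_, h4⟩ : stabilizer σ.range _))
    rw [← hl, ← orderOf_pow, orderOf_dvd_iff_pow_eq_one]
    set k := orderOf (⟨_, h4⟩ : stabilizer σ.range _)
    have h5 : σ ⟨n, hn⟩ ^ k = 1 := congrArg (fun t : stabilizer σ.range _ => ((t : σ.range) : PGL(2, K)))
      (pow_orderOf_eq_one (⟨_, h4⟩ : stabilizer σ.range _))
    rw [← map_pow] at h5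
    have h6 := pgl_mk_eq_one_iff.1 h5
    have h7 : (n.1 ^ k) 0 1 = 0 ∧ (n.1 ^ k) 1 0 = 0 ∧ (n.1 ^ k) 0 0 = (n.1 ^ k) 1 1 :=
      ⟨φ.injective (h6.1.trans (map_zero φ).symm), φ.injective (h6.2.1.trans (map_zero φ).symm),
        φ.injective h6.2.2⟩
    have h8 := eigen_iff.1 (pow_mulVec_of_eigen h1 k)
    have h9 : (n.1 ^ k).det = (l : ZMod p) ^ k := by rw [det_pow, h2]
    rw [det_fin_two] at h9
    rw [h7.1, h7.2.1, h7.2.2] at h8 h9
    have h10 : (n.1 ^ k) 1 1 = (l : ZMod p)⁻¹ ^ k := by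
      generalize (l : ZMod p)⁻¹ ^ k = s at h8 ⊢
      rcases ne_iff.1 (D.ne a ha) with h0 | h0
      · exact mul_right_cancel₀ h0 (by simpa using h8.1)
      · exact mul_right_cancel₀ h0 (by simpa using h8.2)
    rw [h10] at h9
    apply Units.ext
    have h11 : (l : ZMod p)⁻¹ ^ k * (l : ZMod p) ^ k = 1 := by
      rw [← mul_pow, inv_mul_cancel₀ l.ne_zero, one_pow]
    rw [Units.val_pow_eq_pow_val, Units.val_pow_eq_pow_val, Units.val_one, ← pow_mul, mul_comm, pow_mul]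
    generalize (l : ZMod p)⁻¹ ^ k = s at h9 h11
    generalize (l : ZMod p) ^ k = t at h9 h11
    linear_combination (-t ^ 2) * h9 + (s * t + 1) * h11
  have := (H91.card_pts_le hM (hM.u_eq_one_of_not_dvd hp.out fun e => D.not_dvd
    (e.trans (card_range_dvd σ))) (by omega) {_, _, _} (by
      simp only [Finset.mem_insert, Finset.mem_singleton, forall_eq_or_imp, forall_eq]
      exact ⟨key u hu, key v hv', key w hw⟩)).1 hn
  rw [Finset.card_eq_three.2 ⟨_, _, _, hf _ _ hu hv' uv, hf _ _ hu hw uw, hf _ _ hv' hw vw, rfl⟩] at this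
  omega

theorem Dat.cases (h : Three R) (h2 : p ≠ 2) (h7 : p ≠ 7) : p = 3 ∨ p = 5 ∨ p = 13 := by
  have hb := D.bound h
  have hpp := hp.out
  by_cases h19 : 19 ≤ p
  · have h3 : Nat.gcd (p - 1) 3 ≤ 3 := Nat.gcd_le_right _ (by norm_num)
    exact (hb ((Nat.le_div_iff_mul_le (Nat.gcd_pos_of_pos_right _ (by norm_num))).2 (by omega))).elim
  · have h5 : p < 19 := by omega
    clear * - hb hpp h5 h2 h7
    interval_cases p <;> first | omega | (exfalso; revert hpp; norm_num; done) | (exfalso; revert hb; norm_num)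

omit D

instance fact5 : Fact (Nat.Prime 5) := ⟨by norm_num⟩
instance fact13 : Fact (Nat.Prime 13) := ⟨by norm_num⟩

/-- Coset representatives modulo the scalars. -/
def w24 : List (List ℕ) := [[], [0], [1], [0, 0], [0, 1], [1, 0], [1, 1], [0, 0, 0], [0, 0, 1], [0, 1, 0],
  [0, 1, 1], [1, 0, 0], [1, 1, 0], [1, 1, 1], [0, 0, 0, 1], [0, 0, 1, 0], [0, 0, 1, 1], [0, 1, 0, 0],
  [0, 1, 1, 1], [1, 0, 0, 0], [1, 1, 1, 0], [0, 0, 0, 1, 0], [0, 1, 0, 0, 0], [0, 1, 1, 1, 0]]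

/-- The generators for `p = 3`. -/
def g3 : List (T4 (ZMod 3)) := [(2, 0, 0, 1), (0, 2, 2, 0)]
/-- The dihedral group of order 8. -/
def L3 : List (T4 (ZMod 3)) := pr ([[], [0, 1, 0, 1]].map (ev g3)) ([[], [0], [1], [0, 1]].map (ev g3))
/-- The generators for `p = 5`. -/
def g5 : List (T4 (ZMod 5)) := [(3, 0, 0, 4), (1, 2, 2, 1)]
/-- The group `4S₄`. -/
def L5 : List (T4 (ZMod 5)) := pr ((List.range 4).map fun k => ev g5 (List.replicate k [0, 0, 1, 0, 0, 1]).flatten)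
  (w24.map (ev g5))
/-- The generators for `p = 13`. -/
def g13 : List (T4 (ZMod 13)) := [(7, 0, 0, 4), (12, 8, 8, 12)]
/-- The group `3 × 4S₄` modulo the scalars. -/
def L13 : List (T4 (ZMod 13)) := w24.map (ev g13)
/-- The scalars. -/
def S13 : List (T4 (ZMod 13)) :=
  (List.range 12).map fun k => ev [ev g13 [0, 0, 0, 1, 1, 0, 0, 0, 1, 1]] (List.replicate k 0)

theorem c3a : ∀ b : ZMod 3, t3 2 1 b = (0, 2, 2, 0) ∨
    ([[0, 1]].any fun w => bd (ev [(2, 0, 0, 1), t3 2 1 b] w)) = true := by decide +kernel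
theorem c3b : ∀ a b : ZMod 3, ¬ (a = 0 ∧ b = 0) → (∃ t ∈ L3, t.1 * b = t.2.2.1 * a) ∨
    ∃ t ∈ L3, (tm t (1, 1, 1, 2)).1 * b = (tm t (1, 1, 1, 2)).2.2.1 * a := by decide +kernel
set_option synthInstance.maxSize 1000 in
theorem c3c : ∀ a b c d : ZMod 3, a * d - b * c ≠ 0 → (a, b, c, d) ∈ L3 ∨
    (a, b, c, d) ∈ pr L3 [(1, 1, 1, 2)] ∨ ∃ t ∈ L3, bd (tm t (a, b, c, d)) = true := by decide +kernel
theorem c3d : ∀ s ∈ pr L3 [(1, 1, 1, 2)], ∀ t ∈ pr L3 [(1, 1, 1, 2)], t ∈ pr L3 [s] := by decide +kernel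
theorem c3e : (∀ s ∈ L3, tm (tm s s) (tm s s) = (1, 0, 0, 1)) ∧
    ∃ s ∈ pr L3 [(1, 1, 1, 2)], tm (tm s s) (tm s s) ≠ (1, 0, 0, 1) := by decide +kernel

theorem c5a : ∀ b : ZMod 5, t3 2 1 b = (1, 2, 2, 1) ∨
    ([[0, 1], [0, 0, 0, 1]].any fun w => bd (ev [(3, 0, 0, 4), t3 2 1 b] w)) = true := by decide +kernel
theorem c5b : ∀ a b : ZMod 5, ∃ t ∈ L5, t.1 * b = t.2.2.1 * a := by decide +kernel
theorem c5c : ∀ a b c d : ZMod 5, a * d - b * c ≠ 0 → (a, b, c, d) ∈ L5 ∨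
    ∃ t ∈ L5, bd (tm t (a, b, c, d)) = true := by decide +kernel

theorem c13a : ∀ b : ZMod 13, t3 2 1 b = (12, 8, 8, 12) ∨
    ([[0, 0, 0, 1], [0, 0, 0, 1, 0, 1], [0, 0, 0, 1, 0, 1, 1, 1], [0, 0, 0, 1, 0, 1, 1, 0, 1, 1],
      [0, 0, 0, 1, 0, 0, 1, 1, 0, 1]].any fun w => bd (ev [(7, 0, 0, 4), t3 2 1 b] w)) = true := by
  decide +kernel
theorem c13b : ∀ a b : ZMod 13, r0 a b = true → ∃ t ∈ L13, t.1 * b = t.2.2.1 * a := by decide +kernel
theorem c13c : ∀ c b : ZMod 13, r0 1 c = true ∨ ([[0, 2], [1, 2], [0, 0, 0, 2], [0, 1, 1, 2], [0, 0, 1, 2],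
    [0, 1, 0, 2], [0, 2, 1, 1], [0, 0, 0, 2, 0, 2], [0, 0, 1, 1, 2, 2]].any
      fun w => bd (ev [(7, 0, 0, 4), (12, 8, 8, 12), t3 2 c b] w)) = true := by decide +kernel
theorem c13d : ∀ a c : ZMod 13, r0 a c = true → ∀ b d : ZMod 13, r0 b d = true → a * d - b * c ≠ 0 →
    r0 (a + b) (c + d) = true → r0 (a - b) (c - d) = true → r0 (a + 5 * b) (c + 5 * d) = true →
      r0 (a - 5 * b) (c - 5 * d) = true → (a, b, c, d) ∈ pr S13 L13 := by decide +kernel
theorem c13e : ∀ a b : ZMod 13, a ≠ 0 → r0 1 (a⁻¹ * b) = true → r0 a b = true := by decide +kernel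

theorem vec_eta {α : Type*} (v : Fin 2 → α) : ![v 0, v 1] = v := vec_ext rfl rfl

theorem Dat.nf5 {W : Subgroup (GL (Fin 2) (ZMod 5))} {R : (Fin 2 → ZMod 5) → Prop} (D : Dat W R)
    (h : Three R) : ∃ N : GL (Fin 2) (ZMod 5), (∀ M, N * M * N⁻¹ ∈ W ↔ tup M ∈ L5) ∧ ∀ v, R (N • v) ↔ v ≠ 0 := by
  obtain ⟨N, h1, h2, h3⟩ := D.nf h (l := 2) (by decide) (by decide)
  have D' := D.conj N
  have a1 : In (cw W N) (3, 0, 0, 4) := ⟨_, h1, by decide +kernel⟩
  obtain ⟨b, a2⟩ := D'.in_t3 h3 (l := 2) (by decide)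
  rw [(c5a b).resolve_right (D'.no (by decide) (by simp [a1, a2]))] at a2
  have g : ∀ t ∈ g5, In (cw W N) t := by simp [g5, a1, a2]
  have k : ∀ t ∈ L5, In (cw W N) t := in_pr (by simpa using fun k _ => in_ev g _) (in_map g _)
  refine ⟨N, fun M => ⟨fun hM => (c5c _ _ _ _ (det_ne M)).resolve_right fun ⟨t, ht, e⟩ => ?_,
    fun e => (k _ e).mem⟩, fun v => ⟨D'.ne v, fun e => ?_⟩⟩
  · exact Bool.eq_false_iff.1 (D'.bd (by decide) ((k t ht).mul ⟨M, hM, rfl⟩)) e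
  · obtain ⟨t, ht, e'⟩ := c5b (v 0) (v 1)
    exact vec_eta v ▸ D'.line h2 (k t ht) (not_and_or.2 (ne_iff.1 e)) e'

theorem Dat.nf13 {W : Subgroup (GL (Fin 2) (ZMod 13))} {R : (Fin 2 → ZMod 13) → Prop} (D : Dat W R)
    (h : Three R) : ∃ N : GL (Fin 2) (ZMod 13), (∀ M, N * M * N⁻¹ ∈ W ↔ tup M ∈ pr S13 L13) ∧
      ∀ v, R (N • v) ↔ r0 (v 0) (v 1) = true := by
  obtain ⟨N, h1, h2, h3⟩ := D.nf h (l := 2) (by decide) (by decide)
  have D' := D.conj N
  have a1 : In (cw W N) (7, 0, 0, 4) := ⟨_, h1, by decide +kernel⟩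
  obtain ⟨b, a2⟩ := D'.in_t3 h3 (l := 2) (by decide)
  rw [(c13a b).resolve_right (D'.no (by decide) (by simp [a1, a2]))] at a2
  have g : ∀ t ∈ g13, In (cw W N) t := by simp [g13, a1, a2]
  have k : ∀ t ∈ pr S13 L13, In (cw W N) t := in_pr (by
    simpa [S13] using fun k _ => in_ev (by simpa using in_ev g _) _) (in_map g _)
  have r1 : ∀ a b, r0 a b = true → R (N • ![a, b]) := fun a b e =>
    let ⟨t, ht, e'⟩ := c13b a b e
    D'.line h2 (in_map g _ t ht) (fun ⟨x, y⟩ => by simp [r0, x, y] at e) e'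
  have r2 : ∀ v, R (N • v) → r0 (v 0) (v 1) = true := fun v hv => by
    by_cases h0 : v 0 = 0
    · simpa [r0, h0] using (ne_iff.1 (D'.ne v hv)).resolve_left (not_not.2 h0)
    have := D'.smul _ (inv_ne_zero h0) v hv
    rw [show (v 0)⁻¹ • v = ![1, (v 0)⁻¹ * v 1] from vec_ext (inv_mul_cancel₀ h0) rfl] at this
    obtain ⟨b, a3⟩ := D'.in_t3 this (l := 2) (by decide)
    exact c13e _ _ h0 ((c13c _ b).resolve_right (D'.no (by decide) (by simp [a1, a2, a3])))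
  refine ⟨N, fun M => ⟨fun hM => ?_, fun e => (k _ e).mem⟩, fun v => ⟨r2 v, fun e => vec_eta v ▸ r1 _ _ e⟩⟩
  have q : ∀ a b, r0 a b = true → r0 (M.1 0 0 * a + M.1 0 1 * b) (M.1 1 0 * a + M.1 1 1 * b) = true :=
    fun a b e => by simpa only [sm0, sm1, cons_val_zero, cons_val_one] using r2 _ (D'.inv M hM _ (r1 a b e))
  exact c13d _ _ (by simpa using q 1 0 rfl) _ _ (by simpa using q 0 1 rfl) (det_ne M) (by simpa using q 1 1 rfl)
    (by simpa [sub_eq_add_neg] using q 1 (-1) rfl) (by simpa [mul_comm] using q 1 5 rfl)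
    (by simpa [mul_comm, sub_eq_add_neg] using q 1 (-5) rfl)

/-- There is an element of order `8`. -/
def Ty (W : Subgroup (GL (Fin 2) (ZMod 3))) : Prop := ∃ M ∈ W, M * M * (M * M) ≠ 1

theorem Dat.nf3 {W : Subgroup (GL (Fin 2) (ZMod 3))} {R : (Fin 2 → ZMod 3) → Prop} (D : Dat W R)
    {N : GL (Fin 2) (ZMod 3)} (h1 : dg (2 : ZMod 3)⁻¹ (2 ^ 2) (by decide +kernel) ∈ cw W N) (h2 : R (N • ![1, 0]))
    (h3 : R (N • ![1, 1])) : (∀ M, N * M * N⁻¹ ∈ W ↔ tup M ∈ L3 ∨ Ty W ∧ tup M ∈ pr L3 [(1, 1, 1, 2)]) ∧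
      ∀ v, R (N • v) ↔ v ≠ 0 := by
  have D' := D.conj N
  have a1 : In (cw W N) (2, 0, 0, 1) := ⟨_, h1, by decide +kernel⟩
  obtain ⟨b, a2⟩ := D'.in_t3 h3 (l := 2) (by decide)
  rw [(c3a b).resolve_right (D'.no (by decide) (by simp [a1, a2]))] at a2
  have g : ∀ t ∈ g3, In (cw W N) t := by simp [g3, a1, a2]
  have k : ∀ t ∈ L3, In (cw W N) t := in_pr (in_map g _) (in_map g _)
  have c : ∀ M ∈ cw W N, tup M ∈ L3 ∨ tup M ∈ pr L3 [(1, 1, 1, 2)] := fun M hM =>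
    (c3c _ _ _ _ (det_ne M)).imp_right fun e => e.resolve_right fun ⟨t, ht, e⟩ =>
      Bool.eq_false_iff.1 (D'.bd (by decide) ((k t ht).mul ⟨M, hM, rfl⟩)) e
  have f : ∀ M ∈ cw W N, tup M ∈ pr L3 [(1, 1, 1, 2)] → ∀ t ∈ pr L3 [(1, 1, 1, 2)], In (cw W N) t :=
    fun M hM e t ht => in_pr k (by simpa using ⟨M, hM, rfl⟩) t (c3d _ e t ht)
  refine ⟨fun M => ⟨fun hM => (c M hM).imp_right fun e => ⟨?_, e⟩, fun e => e.elim (fun e => (k _ e).mem)
    fun ⟨⟨A, hA, a⟩, e⟩ => ?_⟩, fun v => ⟨D'.ne v, fun e => ?_⟩⟩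
  · obtain ⟨s, hs, e'⟩ := c3e.2
    obtain ⟨A, hA, rfl⟩ := f M hM e s hs
    refine ⟨_, hA, fun e => e' ?_⟩
    simp only [MulEquiv.coe_toMonoidHom, ← map_mul, MulEquiv.map_eq_one_iff] at e
    rw [← tup_mul, ← tup_mul, e]; rfl
  · have hB : N⁻¹ * A * N⁻¹⁻¹ ∈ cw W N := by simpa [mem_cw, mul_assoc]
    refine (f _ hB ((c _ hB).resolve_left fun e => a ?_) _ e).mem
    have := c3e.1 _ e
    rw [← tup_mul, ← tup_mul, conj_mul, conj_mul] at this
    exact conj_eq_one_iff.1 (tup_inj (N := 1) this)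
  · rcases c3b (v 0) (v 1) (not_and_or.2 (ne_iff.1 e)) with ⟨t, ht, e'⟩ | ⟨t, ht, e'⟩
    · exact vec_eta v ▸ D'.line h2 (k t ht) (not_and_or.2 (ne_iff.1 e)) e'
    · obtain ⟨A, hA, rfl⟩ := k t ht
      have r := D'.inv A hA _ h3
      obtain ⟨s, hs⟩ := exists_smul (w := v) (D'.ne _ r) (by
        simpa [om, sm0, sm1, sub_eq_zero, tm, tup] using e')
      exact hs ▸ D'.smul s (fun e0 => e (by simpa [e0] using hs)) _ r

theorem eqns_Cls : True := by
  have := @cw.eq_1.{0}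
  have := @tup.eq_1.{0}
  have := @tm.eq_1.{0}
  have := @ev.eq_1.{0}
  have := @In.eq_1.{0}
  have := @pr.eq_1.{0}
  have := @t3.eq_1.{0}
  have := @bd.eq_1.{0}
  have := @r0.eq_1.{0}
  have := @w24.eq_1
  have := @g3.eq_1
  have := @L3.eq_1
  have := @g5.eq_1
  have := @L5.eq_1
  have := @g13.eq_1
  have := @L13.eq_1
  have := @S13.eq_1
  have := @Ty.eq_1
  trivial

end H39.RV
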